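import Cfsg.Agent.H883.BR.Defs
import Cfsg.Agent.H110.BR.PM

/-!
# HUB BR, stub B2: many linearly independent conjugates of a root element (helper869)

`card_of_curve` : curves `1 + t N₁ + … + t ^ e Nₑ` in a subgroup `M` normalised by a dense subgroup `H`;
`card_of_root` (`e = 1`), `card_of_curve_two` (`e = 2`).
-/

set_option autoImplicit false

namespace Cfsg.Agent.H869.BR

open Cfsg.Agent.H883.BR

universe u v w

/-- the general form of B2 -/
theorem card_of_curve {K : Type u} [Field K] {F : Subfield K} [Finite F] {G : Type w} [Group G] [Finite G]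
    {V : Type v} [AddCommGroup V] [Module K V] [FiniteDimensional K V] {ρ : G →* Module.End K V}
    {H M : Subgroup G} (hn : ∀ h ∈ H, ∀ m ∈ M, h * m * h⁻¹ ∈ M) (hD : Dns (ad ρ) H) {e : ℕ} (he : 1 ≤ e)
    {N : ℕ → Module.End K V} (hN : ∀ t ∈ F, ∃ m ∈ M, ρ m = 1 + ∑ j ∈ Finset.Icc 1 e, t ^ j • N j) {d : ℕ}
    (hd : ∀ S : Submodule K (Module.End K V), Inv (ad ρ) ⊤ S → N 1 ∈ S → d ≤ Module.finrank K S) :
    Nat.choose ((Nat.card F - 1) / e + d) d ≤ Nat.card M := by
  -- the conjugates of `N 1`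
  let s : Set (Module.End K V) := {X | ∃ h ∈ H, X = ad ρ h (N 1)}
  have hinv : Inv (ad ρ) H (Submodule.span K s) := by
    intro h hh v hv
    have h1 : Submodule.span K s ≤ (Submodule.span K s).comap (ad ρ h) := by
      rw [Submodule.span_le]
      rintro _ ⟨k, hk, rfl⟩
      refine Submodule.subset_span ⟨h * k, H.mul_mem hh hk, ?_⟩
      rw [map_mul]
      rfl
    exact h1 hv
  have ha1 : N 1 ∈ Submodule.span K s := Submodule.subset_span ⟨1, H.one_mem, by rw [map_one]; rfl⟩
  have hfr := hd _ (hD _ hinv) ha1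
  obtain ⟨b, hbs, hbspan, hbind⟩ := exists_linearIndependent K s
  have hbfin : Finite b := hbind.finite
  have hcard : Module.finrank K (Submodule.span K s) = Nat.card b := by
    have : Fintype b := Fintype.ofFinite b
    have h1 := finrank_span_eq_card hbind
    rw [Subtype.range_coe_subtype, Set.ofPred_mem_eq, hbspan] at h1
    rw [h1, Nat.card_eq_fintype_card]
  -- `d` independent conjugates
  obtain ⟨ε⟩ : Nonempty (Fin d ↪ b) := by
    have : Fintype b := Fintype.ofFinite b
    refine Function.Embedding.nonempty_of_card_le ?_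
    rw [Fintype.card_fin, ← Nat.card_eq_fintype_card, ← hcard]
    exact hfr
  have hε : ∀ i, ∃ h ∈ H, ((ε i : b) : Module.End K V) = ad ρ h (N 1) := fun i => hbs (ε i).2
  choose h hh hhe using hε
  have hind : LinearIndependent K (fun i => ad ρ (h i) (N 1)) := by
    have h1 : (fun i => ad ρ (h i) (N 1)) = fun i => ((ε i : b) : Module.End K V) := funext fun i => (hhe i).symm
    rw [h1]
    exact hbind.comp ε ε.injective
  let M' : Submonoid (Module.End K V) := M.toSubmonoid.map ρ
  have hsurj : Function.Surjective (fun m : M => (⟨ρ m, m, m.2, rfl⟩ : M')) := by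
    rintro ⟨_, m, hm, rfl⟩
    exact ⟨⟨m, hm⟩, rfl⟩
  have hM'fin : Finite M' := Finite.of_surjective _ hsurj
  refine (Cfsg.Agent.H110.BR.poly_method F d e he (fun i j => ad ρ (h i) (N j)) hind M' fun i t ht => ?_).trans
    (Nat.card_le_card_of_surjective _ hsurj)
  obtain ⟨m, hm, hρ⟩ := hN t ht
  refine ⟨h i * m * (h i)⁻¹, hn _ (hh i) m hm, ?_⟩
  have h2 : ρ (h i * m * (h i)⁻¹) = ad ρ (h i) (ρ m) := by rw [map_mul, map_mul]; rfl
  rw [h2, hρ, map_add, map_sum]
  congr 1
  · rw [ad_apply, mul_one, ← map_mul, mul_inv_cancel, map_one]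
  · exact Finset.sum_congr rfl fun j _ => by rw [map_smul]

/-- **B2** -/
theorem card_of_root {K : Type u} [Field K] {F : Subfield K} [Finite F] {G : Type w} [Group G] [Finite G]
    {V : Type v} [AddCommGroup V] [Module K V] [FiniteDimensional K V] {ρ : G →* Module.End K V}
    {H M : Subgroup G} (hn : ∀ h ∈ H, ∀ m ∈ M, h * m * h⁻¹ ∈ M) (hD : Dns (ad ρ) H) {a : Module.End K V}
    (ha : ∀ t ∈ F, ∃ m ∈ M, ρ m = 1 + t • a) {d : ℕ}
    (hd : ∀ S : Submodule K (Module.End K V), Inv (ad ρ) ⊤ S → a ∈ S → d ≤ Module.finrank K S) :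
    Nat.choose (Nat.card F - 1 + d) d ≤ Nat.card M := by
  have h1 := card_of_curve (N := fun _ => a) (e := 1) hn hD le_rfl (fun t ht => by
    obtain ⟨m, hm, h⟩ := ha t ht
    exact ⟨m, hm, by rw [h]; simp⟩) hd
  rwa [Nat.div_one] at h1

/-- B2 for curves of degree two -/
theorem card_of_curve_two {K : Type u} [Field K] {F : Subfield K} [Finite F] {G : Type w} [Group G] [Finite G]
    {V : Type v} [AddCommGroup V] [Module K V] [FiniteDimensional K V] {ρ : G →* Module.End K V}
    {H M : Subgroup G} (hn : ∀ h ∈ H, ∀ m ∈ M, h * m * h⁻¹ ∈ M) (hD : Dns (ad ρ) H) {a a' : Module.End K V}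
    (ha : ∀ t ∈ F, ∃ m ∈ M, ρ m = 1 + t • a + t ^ 2 • a') {d : ℕ}
    (hd : ∀ S : Submodule K (Module.End K V), Inv (ad ρ) ⊤ S → a ∈ S → d ≤ Module.finrank K S) :
    Nat.choose ((Nat.card F - 1) / 2 + d) d ≤ Nat.card M := by
  refine card_of_curve (N := fun j => if j = 1 then a else a') (e := 2) hn hD (by norm_num) (fun t ht => ?_)
    (fun S hS h => hd S hS (by simpa using h))
  obtain ⟨m, hm, h⟩ := ha t ht
  refine ⟨m, hm, ?_⟩
  rw [h, show Finset.Icc 1 2 = {1, 2} from rfl, Finset.sum_pair (by norm_num)]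
  simp [add_assoc]

end Cfsg.Agent.H869.BR
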